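import Cfsg.Agent.H514.DP.Core

/-!
# Abstract lemmas for the Monster row of S2454 (helper909)
-/

set_option autoImplicit false

namespace Cfsg.Agent.H909.Mon

open Cfsg.Agent.H514.DP

universe u

variable {G : Type u} [Group G]

/-- a commutator with a product of `m` `p`-elements -/
theorem pe_comm {p m : ℕ} {y : G} (hy : PE p m y) (U : G) : PE p (m + m) (y * U * y⁻¹ * U⁻¹) := by
  have h := hy.mul (hy.inv.conj U)
  rwa [show y * (U * y⁻¹ * U⁻¹) = y * U * y⁻¹ * U⁻¹ by group] at h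

/-- the commutator of a `p`-element and an arbitrary one -/
theorem pe_comm_elt {p : ℕ} {x : G} (hx : IsPE p x) (U : G) : PE p 2 (U * (x * U⁻¹ * x⁻¹)) := by
  have h := (hx.conj U).pe.mul hx.inv.pe
  rwa [show U * x * U⁻¹ * x⁻¹ = U * (x * U⁻¹ * x⁻¹) by group] at h

/-- **The pair lemma.** -/
theorem inv_of_pair {s T U : G} (hsU : s * U = U * s) (hT : T * T = 1)
    (hc : T * (U * T * U⁻¹) = (U * T * U⁻¹) * T) (hne : T ≠ U * T * U⁻¹) :
    ((s * T) * U * (s * T)⁻¹ * U⁻¹) * ((s * T) * U * (s * T)⁻¹ * U⁻¹) = 1 ∧ (s * T) * U * (s * T)⁻¹ * U⁻¹ ≠ 1 := by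
  have hTi : T⁻¹ = T := inv_eq_of_mul_eq_one_left hT
  have h1 : s⁻¹ * U⁻¹ = U⁻¹ * s⁻¹ := by
    rw [← mul_inv_rev, ← mul_inv_rev, hsU]
  have h2 : (s * T) * U * (s * T)⁻¹ * U⁻¹ = s * (T * (U * T * U⁻¹)) * s⁻¹ := by
    calc (s * T) * U * (s * T)⁻¹ * U⁻¹ = s * T * U * T⁻¹ * (s⁻¹ * U⁻¹) := by group
      _ = s * T * U * T * (U⁻¹ * s⁻¹) := by rw [h1, hTi]
      _ = _ := by group
  have hS : (U * T * U⁻¹) * (U * T * U⁻¹) = 1 := by
    calc (U * T * U⁻¹) * (U * T * U⁻¹) = U * (T * T) * U⁻¹ := by group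
      _ = 1 := by rw [hT]; group
  generalize U * T * U⁻¹ = S at hc hne hS h2
  rw [h2]
  constructor
  · calc s * (T * S) * s⁻¹ * (s * (T * S) * s⁻¹) = s * (T * S * (T * S)) * s⁻¹ := by group
      _ = s * (T * (S * T) * S) * s⁻¹ := by group
      _ = s * ((T * T) * (S * S)) * s⁻¹ := by rw [← hc]; group
      _ = 1 := by rw [hT, hS]; group
  · intro h
    have h3 : T * S = 1 := by
      have h4 : s * (T * S) * s⁻¹ = s * 1 * s⁻¹ := by rw [h]; group
      exact mul_left_cancel (mul_right_cancel h4)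
    apply hne
    have h5 := eq_inv_of_mul_eq_one_left h3
    rw [h5]
    exact inv_eq_of_mul_eq_one_left hS

/-- an element commuting up to the central involution with two elements commutes with one of them or their product -/
theorem pick {z s a b : G} (hz : z * z = 1) (hza : z * a = a * z) (ha : s * a = a * s ∨ s * a = a * s * z)
    (hb : s * b = b * s ∨ s * b = b * s * z) : s * a = a * s ∨ s * b = b * s ∨ s * (b * a) = (b * a) * s := by
  rcases ha with h | h
  · exact Or.inl h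
  rcases hb with h' | h'
  · exact Or.inr (Or.inl h')
  right; right
  calc s * (b * a) = (s * b) * a := by group
    _ = b * s * (z * a) := by rw [h']; group
    _ = b * (s * a) * z := by rw [hza]; group
    _ = b * a * s * (z * z) := by rw [h]; group
    _ = _ := by rw [hz, mul_one]

end Cfsg.Agent.H909.Mon
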