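import Cfsg.Agent.H909.Mon.Def

/-!
# Kernel checks for the Monster row of S2454 (helper909): the classes `j = 5, 6, 7, 8` of pairs
-/

set_option autoImplicit false
set_option maxRecDepth 100000
set_option Elab.async false

namespace Cfsg.Agent.H909.Mon

open Cfsg.Agent.MonsterX.OrdChk

theorem ok5_1 : cert 5 (tc [36]) 0 0 = true := by decide +kernel

theorem ok5_2 : cert 5 (tc [36, 36]) 256 256 = true := by decide +kernel

theorem ok5_3 : cert 5 (cat (tc [36]) (tc [36, 36])) 0 0 = true := by decide +kernel

theorem ok6_1 : cert 6 (tc [36]) 0 0 = true := by decide +kernel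

theorem ok6_2 : cert 6 (tc [1]) 0 0 = true := by decide +kernel

theorem ok6_3 : cert 6 (cat (tc [36]) (tc [1])) 256 256 = true := by decide +kernel

theorem ok7_1 : cert 7 (tc [36]) 256 256 = true := by decide +kernel

theorem ok7_2 : cert 7 (tc [43, 36]) 256 0 = true := by decide +kernel

theorem ok7_3 : cert 7 (cat (tc [36]) (tc [43, 36])) 256 0 = true := by decide +kernel

theorem ok8_1 : cert 8 (tc []) 256 256 = true := by decide +kernel

theorem ok8_2 : cert 8 (tc [43]) 0 0 = true := by decide +kernel

theorem ok8_3 : cert 8 (cat (tc []) (tc [43])) 0 0 = true := by decide +kernel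

end Cfsg.Agent.H909.Mon
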