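import Cfsg.Agent.H909.Mon.CertW

/-!
# Kernel checks for the Monster row of S2454 (helper909): the 23rd power of `w3` fixes the lines of the base

`C` permutes the lines up to sign, so the images `yB1`, `yB2`, `yB3` of `yB` under the powers 6, 12, 18 are short.
-/

set_option autoImplicit false
set_option maxRecDepth 100000
set_option Elab.async false

namespace Cfsg.Agent.H909.Mon

open Cfsg.Agent.Monster.VecEngine Cfsg.Agent.MonsterX.ProgTable Cfsg.Agent.MonsterX.BaseVec
open Cfsg.Agent.MonsterX.InstData

/-- the image of the lines under the power 6 -/
noncomputable def yB1 : Pl :=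
  .cons (bits [701, 23102, 25418, 35421, 35786, 44886, 48570, 79159, 86738, 95121, 95888, 123809])
    (.cons (bits [701, 35421, 42189, 42765, 44866, 44886, 47935, 79159, 88302, 95888, 121522, 123809])
    (.cons (bits [23102, 35786, 42189, 44866, 47935, 79159, 86738, 88302, 95888, 120015, 123809, 127665, 130955])
    (.cons (bits [25418, 33534, 35786, 36610, 42189, 42765, 44886, 48570, 79159, 88302, 95888, 127665])
    (.cons (bits [701, 35421, 35786, 36610, 42189, 47935, 48570, 86738, 95872, 120015, 121522, 123809, 127665,
      130955])
    (.sgn (bits [701, 35786, 42189, 42765, 47935, 48570, 79159, 88302, 95872, 121522, 127665, 130955]))))))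

/-- the image of the lines under the power 12 -/
noncomputable def yB2 : Pl :=
  .cons (bits [2010, 4837, 14245, 16805, 23121, 27909, 37858, 75763, 99923, 109523, 121043, 128947])
    (.cons (bits [20344, 62803, 67172, 74660, 87571, 121395])
    (.cons (bits [4837, 23121, 27909, 62803, 63095, 67859, 75763, 76772, 109523, 128947])
    (.cons (bits [20344, 23121, 27909, 37858, 39546, 62803, 63095, 67859, 68211, 75763, 87571, 99923, 121043, 121395])
    (.cons (bits [4837, 14245, 16805, 36037, 39546, 62803, 67172, 67859, 74660, 75763, 76772, 87571, 121043, 128947])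
    (.sgn (bits [16805, 20344, 23121, 37858, 62803, 67859, 74660, 75763, 87571, 121043, 128947]))))))

/-- the image of the lines under the power 18 -/
noncomputable def yB3 : Pl :=
  .cons (bits [5928, 9619, 15653, 30161, 30982, 35871, 47649, 73965, 101956, 109612, 109773, 109805])
    (.cons (bits [5928, 9619, 17769, 30161, 30463, 35871, 41483, 44322, 73965, 76576, 99876, 101956, 109773, 109805])
    (.cons (bits [9619, 15653, 17769, 23013, 30161, 30982, 35209, 35871, 41483, 44322, 76576, 99876, 100228, 109805])
    (.cons (bits [15653, 30161, 30463, 35871, 41483, 73933, 73965, 76576, 96292, 99876, 100228, 101956, 109612])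
    (.cons (bits [5928, 9619, 17769, 23013, 30463, 30982, 35871, 41483, 44322, 47649, 73933, 73965, 109612, 109805,
      121267])
    (.sgn (bits [17769, 23013, 30463, 30982, 35871, 41483, 73933, 73965, 96292, 99876, 100228, 101956, 109612,
      109805]))))))

theorem seg1 : check ((rep w3 6).map prog) yB ([].map prog) yB1 = true := by decide +kernel

theorem seg2 : check ((rep w3 6).map prog) yB1 ([].map prog) yB2 = true := by decide +kernel

theorem seg3 : check ((rep w3 6).map prog) yB2 ([].map prog) yB3 = true := by decide +kernel

theorem seg4 : check ((rep w3 5).map prog) yB3 ([].map prog) yB = true := by decide +kernel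

end Cfsg.Agent.H909.Mon
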