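import Cfsg.Agent.MonsterX.OrdChk
import Cfsg.Agent.MonsterX.InstEval

/-!
# Words and checks for the Monster row of S2454 (helper909)

* `vw j u` : the word of `wj⁻¹ * W u * wj`, `wj = W (bj j)`;
* `cert j u c` : kernel check which gives: `t₀` fixes `W (vw j u) a₀` and `F a₀ (W (vw j u) a₀) = c / 256`.
-/

set_option autoImplicit false

namespace Cfsg.Agent.H909.Mon

open Cfsg.Agent.Monster.VecEngine Cfsg.Agent.Monster.VecSpace Cfsg.Agent.MonsterX.Space
open Cfsg.Agent.MonsterX.ProgTable Cfsg.Agent.MonsterX.GensT Cfsg.Agent.MonsterX.ProgBase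
open Cfsg.Agent.MonsterX.Conc Cfsg.Agent.MonsterX.Model Cfsg.Agent.MonsterX.InstData
open Cfsg.Agent.MonsterX.OrdChk Cfsg.Agent.MonsterX.InstEval

/-- the word of `W c * t₀ * (W c)⁻¹` -/
noncomputable def tc (c : List ℕ) : List ℕ := cyA c []

/-- the word of `wj⁻¹ * W u * wj` -/
noncomputable def vw (j : ℕ) (u : List ℕ) : List ℕ := cat (bj j) (cat u (ivA (bj j) []))

/-- the check -/
noncomputable def cert (j : ℕ) (u : List ℕ) (c c' : ℤ) : Bool :=
  and (fixC (vw j u)) (formIs 8 (vw j u) a0B c c')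

/-- the three checks for the pair of words -/
noncomputable def cert3 (j : ℕ) (c1 c2 : List ℕ) (p q r : ℤ × ℤ) : Bool :=
  and (cert j (tc c1) p.1 p.2) (and (cert j (tc c2) q.1 q.2) (cert j (cat (tc c1) (tc c2)) r.1 r.2))

end Cfsg.Agent.H909.Mon
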