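import Cfsg.Agent.H909.Mon.Abs
import Cfsg.Agent.H909.Mon.CertA
import Cfsg.Agent.H909.Mon.CertB
import Cfsg.Agent.H909.Mon.CertC
import Cfsg.Agent.MonsterX.InstanceFinal
import Cfsg.Agent.MonsterX.MainPack
import Cfsg.Agent.MonsterU.ModelChart

/-!
# The pair lemma for the Monster row of S2454 (helper909)

`exists_inv` : if the `p`-element `x` does not commute with `t₀`, then there is an involution which is a product of
four `p`-elements.
-/

set_option autoImplicit false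
set_option maxRecDepth 100000

namespace Cfsg.Agent.H909.Mon

open Cfsg.Agent.Monster.VecEngine Cfsg.Agent.Monster.VecSpace Cfsg.Agent.MonsterX
open Cfsg.Agent.MonsterX.ProgTable Cfsg.Agent.MonsterX.GensT Cfsg.Agent.MonsterX.ProgBase
open Cfsg.Agent.MonsterX.Conc Cfsg.Agent.MonsterX.Model Cfsg.Agent.MonsterX.InstData
open Cfsg.Agent.MonsterX.OrdChk Cfsg.Agent.MonsterX.InstEval Cfsg.Agent.MonsterX.ConcGrp
open Cfsg.Agent.MonsterX.MainPack Cfsg.Agent.MonsterX.MainBasic Cfsg.Agent.MonsterX.MainTrans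
open Cfsg.Agent.MonsterX.MainSimple
open Cfsg.Agent.MonsterU.ModelChart (conj_Q)
open Cfsg.Agent.H514.DP

/-- the model -/
abbrev MG : Type := ↥InstData.M.G

/-- the linear group -/
abbrev LG : Type := Space.V ≃ₗ[ℚ] Space.V

/-- the involution `t₀` -/
noncomputable def t : MG := tG Instance.mGroup Instance.mRep

/-- the central involution `z` -/
noncomputable def zz : MG := zG Instance.mGroup

/-- commuting with `t₀` -/
theorem comm_t {g : LG} (hg : g ∈ M.G) : g * M.t₀ = M.t₀ * g ↔ g M.a₀ = M.a₀ :=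
  comm_iff Instance.mGroup Instance.mRep Instance.mLat InstanceFinal.mOrbit Instance.mTrans hg

theorem t₀_sq : M.t₀ * M.t₀ = 1 := Instance.mRep.t₀_sq

theorem t₀_mem_G : M.t₀ ∈ M.G := C_le (Instance.mGroup.Q_le Instance.mRep.t₀_mem)

theorem mem_G_of_Q {u : LG} (h : u ∈ M.Q) : u ∈ M.G := C_le (Instance.mGroup.Q_le h)

theorem W_cat (a b : List ℕ) : W (cat a b) = W b * W a := by rw [cat_eq, W_append]

theorem W_tc {c : List ℕ} (h : Lt c) : W (tc c) = W c * M.t₀ * (W c)⁻¹ := by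
  unfold tc
  rw [W_cyA Instance.inv h, W_nil, one_mul]

theorem W_vw {j : ℕ} (hj : j < 12) (u : List ℕ) : W (vw j u) = (W (bj j))⁻¹ * W u * W (bj j) := by
  unfold vw
  rw [W_cat, W_cat, W_ivA Instance.inv _ _ (FieldsP.lt_bj j hj), W_nil, one_mul]

/-- the form with the base axis and an equal axis -/
theorem ne_of_form {n : ℕ} {w : List ℕ} {c c' : ℤ} (h : formIs n w a0B c c' = true) (hc : c ≠ 8 * 2 ^ n) :
    W w M.a₀ ≠ M.a₀ := by
  intro h1
  have h2 := (formIs_sound sym_a0B h).1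
  rw [← M_a₀, h1] at h2
  have h3 : Space.F M.a₀ M.a₀ = 8 := Instance.mLat.F_a₀
  rw [h3, eq_div_iff (pow_ne_zero n two_ne_zero)] at h2
  apply hc
  have h4 : ((8 * 2 ^ n : ℤ) : ℚ) = (c : ℚ) := by
    push_cast
    exact h2
  exact (by exact_mod_cast h4.symm)

/-- the property of a word `u` relative to the class `j` -/
def Fine (j : ℕ) (U : LG) : Prop :=
  (W (bj j) * M.t₀ * (W (bj j))⁻¹) * (U * (W (bj j) * M.t₀ * (W (bj j))⁻¹) * U⁻¹) =
    (U * (W (bj j) * M.t₀ * (W (bj j))⁻¹) * U⁻¹) * (W (bj j) * M.t₀ * (W (bj j))⁻¹) ∧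
  W (bj j) * M.t₀ * (W (bj j))⁻¹ ≠ U * (W (bj j) * M.t₀ * (W (bj j))⁻¹) * U⁻¹

theorem fine_of_cert {j : ℕ} (hj : j < 12) {u : List ℕ} {c c' : ℤ} (hu : W u ∈ M.G) (h : cert j u c c' = true)
    (hc : c ≠ 2048) : Fine j (W u) := by
  have h' : and (fixC (vw j u)) (formIs 8 (vw j u) a0B c c') = true := h
  rw [Bool.and_eq_true] at h'
  have h1 := fixC_sound h'.1
  have h2 := ne_of_form h'.2 (by norm_num; exact hc)
  rw [W_vw hj] at h1 h2
  have hw := FieldsP.W_bj_mem_G hj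
  unfold Fine
  generalize W (bj j) = w at *
  generalize W u = U at *
  have hg : w⁻¹ * U * w ∈ M.G := M.G.mul_mem (M.G.mul_mem (M.G.inv_mem hw) hu) hw
  have e1 : w * M.t₀ * w⁻¹ = w * M.t₀ * w⁻¹ := rfl
  have e2 : U * (w * M.t₀ * w⁻¹) * U⁻¹ = w * ((w⁻¹ * U * w) * M.t₀ * (w⁻¹ * U * w)⁻¹) * w⁻¹ := by group
  rw [e2]
  generalize w⁻¹ * U * w = g at *
  have h3 : (g⁻¹ * M.t₀ * g) * M.t₀ = M.t₀ * (g⁻¹ * M.t₀ * g) := by
    rw [comm_t (M.G.mul_mem (M.G.mul_mem (M.G.inv_mem hg) t₀_mem_G) hg)]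
    show g⁻¹ (M.t₀ (g M.a₀)) = M.a₀
    rw [h1]
    exact g.symm_apply_apply _
  have h4 : M.t₀ * (g * M.t₀ * g⁻¹) = g * M.t₀ * g⁻¹ * M.t₀ := by
    calc M.t₀ * (g * M.t₀ * g⁻¹) = g * ((g⁻¹ * M.t₀ * g) * M.t₀) * g⁻¹ := by group
      _ = g * (M.t₀ * (g⁻¹ * M.t₀ * g)) * g⁻¹ := by rw [h3]
      _ = _ := by group
  constructor
  · calc w * M.t₀ * w⁻¹ * (w * (g * M.t₀ * g⁻¹) * w⁻¹) = w * (M.t₀ * (g * M.t₀ * g⁻¹)) * w⁻¹ := by group
      _ = w * (g * M.t₀ * g⁻¹ * M.t₀) * w⁻¹ := by rw [h4]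
      _ = _ := by group
  · intro h5
    have h6 : M.t₀ = g * M.t₀ * g⁻¹ := mul_left_cancel (mul_right_cancel h5)
    apply h2
    rw [← comm_t hg]
    calc g * M.t₀ = g * M.t₀ * g⁻¹ * g := by group
      _ = M.t₀ * g := by rw [← h6]

/-- the property of the class `j` -/
def PP (j : ℕ) : Prop := ∀ s ∈ M.Q, ∃ U ∈ M.Q, s * U = U * s ∧ Fine j U

theorem tc_mem {c : List ℕ} (h : Lt c) (hc : W c ∈ M.C) : W (tc c) ∈ M.Q := by
  rw [W_tc h]
  exact conj_Q Instance.mGroup hc Instance.mRep.t₀_mem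

theorem pp_of {j : ℕ} (hj : j < 12) {c1 c2 : List ℕ} (l1 : Lt c1) (l2 : Lt c2) (m1 : c1.all inC = true)
    (m2 : c2.all inC = true) {p p' q q' r r' : ℤ} (k1 : cert j (tc c1) p p' = true)
    (k2 : cert j (tc c2) q q' = true) (k3 : cert j (cat (tc c1) (tc c2)) r r' = true) (hp : p ≠ 2048) (hq : q ≠ 2048)
    (hr : r ≠ 2048) : PP j := by
  intro s hs
  have n1 := tc_mem l1 (ConcGrp.W_mem_C m1)
  have n2 := tc_mem l2 (ConcGrp.W_mem_C m2)
  have hz := Instance.mGroup.z_comm _ (Instance.mGroup.Q_le n1)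
  rcases Mon.pick Instance.mGroup.z_sq hz.symm (Instance.mGroup.Q_comm s hs _ n1)
    (Instance.mGroup.Q_comm s hs _ n2) with h | h | h
  · exact ⟨_, n1, h, fine_of_cert hj (mem_G_of_Q n1) k1 hp⟩
  · exact ⟨_, n2, h, fine_of_cert hj (mem_G_of_Q n2) k2 hq⟩
  · have n3 : W (cat (tc c1) (tc c2)) ∈ M.Q := by rw [W_cat]; exact M.Q.mul_mem n2 n1
    refine ⟨_, n3, ?_, fine_of_cert hj (mem_G_of_Q n3) k3 hr⟩
    rw [W_cat]
    exact h

theorem lt_of_all {w : List ℕ} (h : (w.all fun n => decide (n < 46)) = true) : Lt w := by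
  intro n hn
  exact of_decide_eq_true (List.all_eq_true.1 h n hn)

theorem pp (j : ℕ) (hj : j < 12) (h0 : j ≠ 0) : PP j := by
  have key := fun {c1 c2 : List ℕ} (l1 : (c1.all fun n => decide (n < 46)) = true)
    (l2 : (c2.all fun n => decide (n < 46)) = true) => pp_of hj (lt_of_all l1) (lt_of_all l2)
  interval_cases j
  · exact absurd rfl h0
  · exact key (by decide) (by decide) (by decide) (by decide) ok1_1 ok1_2 ok1_3 (by decide) (by decide) (by decide)
  · exact key (by decide) (by decide) (by decide) (by decide) ok2_1 ok2_2 ok2_3 (by decide) (by decide) (by decide)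
  · exact key (by decide) (by decide) (by decide) (by decide) ok3_1 ok3_2 ok3_3 (by decide) (by decide) (by decide)
  · exact key (by decide) (by decide) (by decide) (by decide) ok4_1 ok4_2 ok4_3 (by decide) (by decide) (by decide)
  · exact key (by decide) (by decide) (by decide) (by decide) ok5_1 ok5_2 ok5_3 (by decide) (by decide) (by decide)
  · exact key (by decide) (by decide) (by decide) (by decide) ok6_1 ok6_2 ok6_3 (by decide) (by decide) (by decide)
  · exact key (by decide) (by decide) (by decide) (by decide) ok7_1 ok7_2 ok7_3 (by decide) (by decide) (by decide)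
  · exact key (by decide) (by decide) (by decide) (by decide) ok8_1 ok8_2 ok8_3 (by decide) (by decide) (by decide)
  · exact key (by decide) (by decide) (by decide) (by decide) ok9_1 ok9_2 ok9_3 (by decide) (by decide) (by decide)
  · exact key (by decide) (by decide) (by decide) (by decide) ok10_1 ok10_2 ok10_3 (by decide) (by decide) (by decide)
  · exact key (by decide) (by decide) (by decide) (by decide) ok11_1 ok11_2 ok11_3 (by decide) (by decide) (by decide)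

/-- **The involution from a `p`-element which does not commute with `t₀`.** -/
theorem exists_inv {p : ℕ} {x : MG} (hx : IsPE p x) (hne : x * t ≠ t * x) :
    ∃ i : MG, i * i = 1 ∧ i ≠ 1 ∧ PE p 4 i := by
  have htt : t * t = 1 := Subtype.ext t₀_sq
  have hti : t⁻¹ = t := inv_eq_of_mul_eq_one_left htt
  have h0 : PE p 2 (t * (x * t * x⁻¹)) := by
    have := pe_comm_elt hx t
    rwa [hti] at this
  obtain ⟨j, h, hh, h1⟩ := G_X InstanceFinal.mOrbit x.2 (S_sub_X InstanceFinal.mOrbit a₀_mem_S)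
  have hhG := C_le hh
  have hwj : W (bj (show Fin 12 from j).1) ∈ M.G := FieldsP.W_bj_mem_G (show Fin 12 from j).2
  have hj12 : (show Fin 12 from j).1 < 12 := (show Fin 12 from j).2
  have hwd : W (bj (show Fin 12 from j).1) M.a₀ = M.d j := (M_d' (show Fin 12 from j)).symm
  generalize hJ : (show Fin 12 from j).1 = J at *
  have e1 := conj_eq Instance.mGroup Instance.mRep Instance.mLat InstanceFinal.mOrbit Instance.mTrans x.2
    (M.G.mul_mem hhG hwj) (by
      show (x : LG) M.a₀ = h (W (bj J) M.a₀)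
      rw [hwd, h1])
  have hsQ : h⁻¹ * M.t₀ * h ∈ M.Q := by
    have := conj_Q Instance.mGroup (M.C.inv_mem hh) Instance.mRep.t₀_mem
    rwa [inv_inv] at this
  let hG : MG := ⟨h, hhG⟩
  let sG : MG := ⟨h⁻¹ * M.t₀ * h, mem_G_of_Q hsQ⟩
  let TG : MG := ⟨W (bj J) * M.t₀ * (W (bj J))⁻¹, M.G.mul_mem (M.G.mul_mem hwj t₀_mem_G) (M.G.inv_mem hwj)⟩
  have e2 : hG⁻¹ * (t * (x * t * x⁻¹)) * hG⁻¹⁻¹ = sG * TG := by
    apply Subtype.ext
    show h⁻¹ * (M.t₀ * ((x : LG) * M.t₀ * (x : LG)⁻¹)) * h⁻¹⁻¹ = (h⁻¹ * M.t₀ * h) * (W (bj J) * M.t₀ * (W (bj J))⁻¹)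
    rw [e1]; group
  have h2 : PE p 2 (sG * TG) := by
    rw [← e2]
    exact h0.conj _
  by_cases hJ0 : J = 0
  · -- both in `Q`
    subst hJ0
    have hb : W (bj 0) = 1 := W_nil
    have hTQ : (TG : LG) ∈ M.Q := by
      show W (bj 0) * M.t₀ * (W (bj 0))⁻¹ ∈ M.Q
      rw [hb, one_mul, inv_one, mul_one]
      exact Instance.mRep.t₀_mem
    have hy1 : sG * TG ≠ 1 := by
      rw [← e2]
      intro h3
      apply hne
      have h4 : t * (x * t * x⁻¹) = 1 := by
        have h5 : hG⁻¹ * (t * (x * t * x⁻¹)) * hG⁻¹⁻¹ = hG⁻¹ * 1 * hG⁻¹⁻¹ := by rw [h3]; group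
        exact mul_left_cancel (mul_right_cancel h5)
      have h5 := inv_eq_of_mul_eq_one_right h4
      rw [hti] at h5
      calc x * t = (x * t * x⁻¹) * x := by group
        _ = t * x := by rw [← h5]
    rcases Instance.mGroup.Q_sq _ (M.Q.mul_mem hsQ hTQ) with h3 | h3
    · exact ⟨sG * TG, Subtype.ext h3, hy1, h2.mono (by norm_num)⟩
    · refine ⟨(sG * TG) * (sG * TG), ?_, ?_, h2.mul h2⟩
      · apply Subtype.ext
        show (h⁻¹ * M.t₀ * h) * (TG : LG) * ((h⁻¹ * M.t₀ * h) * (TG : LG)) *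
          ((h⁻¹ * M.t₀ * h) * (TG : LG) * ((h⁻¹ * M.t₀ * h) * (TG : LG))) = 1
        rw [h3]
        exact Instance.mGroup.z_sq
      · intro h4
        exact Instance.mGroup.z_ne (h3.symm.trans (congrArg Subtype.val h4))
  · obtain ⟨U, hU, hsU, hc, hne'⟩ := pp J hj12 hJ0 _ hsQ
    let UG : MG := ⟨U, mem_G_of_Q hU⟩
    have hTT : TG * TG = 1 := by
      apply Subtype.ext
      show W (bj J) * M.t₀ * (W (bj J))⁻¹ * (W (bj J) * M.t₀ * (W (bj J))⁻¹) = 1
      calc W (bj J) * M.t₀ * (W (bj J))⁻¹ * (W (bj J) * M.t₀ * (W (bj J))⁻¹) =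
          W (bj J) * (M.t₀ * M.t₀) * (W (bj J))⁻¹ := by group
        _ = 1 := by rw [t₀_sq]; group
    have h3 := inv_of_pair (s := sG) (T := TG) (U := UG) (Subtype.ext hsU) hTT (Subtype.ext hc)
      (fun e => hne' (congrArg Subtype.val e))
    exact ⟨_, h3.1, h3.2, pe_comm h2 UG⟩

end Cfsg.Agent.H909.Mon
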