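import Cfsg.Agent.MonsterX.WordsBaseM
import Cfsg.Agent.MonsterX.InstanceFinal
import Cfsg.Agent.H909.Mon.CertX
import Cfsg.Agent.H909.Mon.Pair

/-!
# Elements of `C` which fix the lines of the base (helper909, S2454)

`eq_one_or_z` : an element of `C` fixing `∑ cᵢ eᵢ` is `1` or `z`.
-/

set_option autoImplicit false
set_option linter.unusedSectionVars false

namespace Cfsg.Agent.H909.Mon

open Cfsg.Agent.MonsterX Cfsg.Agent.MonsterX.Model Cfsg.Agent.MonsterX.WordsBaseM

section base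

variable {W : Type} [AddCommGroup W] [Module ℚ W] {M : MData W} {K₀ : Type} [Group K₀] {n : ℕ} (B : Base W n)
  (hG : MGroup M K₀) (hR : MRep M) (hL : MLat M) (O : B.Ok M)
include hG hR hL O

theorem fix_e (k : W ≃ₗ[ℚ] W) (hC : k ∈ M.C) (h1 : k (∑ i, B.c i • B.e i) = ∑ i, B.c i • B.e i) (j : Fin n) :
    k (B.e j) = B.e j := by
  have h2 := B.F_y_e hR hL O j
  rw [← h1, map_sum, map_sum, LinearMap.sum_apply] at h2
  have h3 : ∃ i, M.F (k (B.c i • B.e i)) (B.e j) ≠ 0 := by
    by_contra hno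
    push Not at hno
    rw [Finset.sum_eq_zero (fun i _ => hno i)] at h2
    have := O.c_pos j
    linarith
  obtain ⟨i, hi⟩ := h3
  have h4 : ∀ i, M.F (k (B.c i • B.e i)) (B.e j) ≠ 0 → k (B.e i) = B.e j ∨ k (B.e i) = - B.e j := by
    intro i hi
    by_contra hno
    push Not at hno
    apply hi
    rw [map_smul, map_smul, LinearMap.smul_apply]
    obtain ⟨g, hg, e1, -⟩ := O.mem i
    obtain ⟨g', hg', e2, -⟩ := O.mem j
    have := F_e_eq hR hL (k * g) (M.C.mul_mem hC hg) g' hg' (by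
      rw [LinearEquiv.mul_apply, ← e1, ← e2]; exact hno.1) (by
      rw [LinearEquiv.mul_apply, ← e1, ← e2]; exact hno.2)
    rw [LinearEquiv.mul_apply, ← e1, ← e2] at this
    rw [this, smul_zero]
  have h5 : ∀ i', i' ≠ i → M.F (k (B.c i' • B.e i')) (B.e j) = 0 := by
    intro i' hne
    by_contra hno
    have h6 := h4 i hi
    have h7 := h4 i' hno
    have h8 := O.ne i' i hne
    rcases h6 with h6 | h6 <;> rcases h7 with h7 | h7
    · exact h8.1 (k.injective (h7.trans h6.symm))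
    · exact h8.2 (k.injective (by rw [map_neg, h7, h6]))
    · exact h8.2 (k.injective (by rw [map_neg, h7, h6, neg_neg]))
    · exact h8.1 (k.injective (h7.trans h6.symm))
  rw [Finset.sum_eq_single i (fun i' _ h => h5 i' h) (fun h => absurd (Finset.mem_univ _) h), map_smul, map_smul,
    LinearMap.smul_apply, smul_eq_mul] at h2
  have hj := B.F_e_self hR hL O j
  rcases h4 i hi with h6 | h6
  · rw [h6, hj] at h2
    have h7 : B.c i = B.c j := by linarith
    have h8 := O.c_inj h7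
    rw [h8] at h6
    exact h6
  · exfalso
    rw [h6, LinearMap.BilinForm.neg_left, hj] at h2
    have := O.c_pos i
    have := O.c_pos j
    linarith

/-- An element of `C` fixing the sum of the lines is `1` or `z`. -/
theorem eq_one_or_z (k : W ≃ₗ[ℚ] W) (hC : k ∈ M.C)
    (h1 : k (∑ i, B.c i • B.e i) = ∑ i, B.c i • B.e i) : k = 1 ∨ k = M.z := by
  have hz := hG.z_comm
  have hE := fix_e B hG hR hL O k hC h1
  have h1 : ∀ i, k * B.t i = B.t i * k := by
    intro i
    obtain ⟨g, hg, e1, e2⟩ := O.mem i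
    have hh : g⁻¹ * k * g ∈ M.C := M.C.mul_mem (M.C.mul_mem (M.C.inv_mem hg) hC) hg
    have he : (g⁻¹ * k * g) M.e₀ = M.e₀ := by
      rw [LinearEquiv.mul_apply, LinearEquiv.mul_apply, ← e1, hE i, e1]
      exact g.symm_apply_apply _
    have h2 := comm_of_fix hR hL _ hh he
    rw [e2]
    calc k * (g * M.t₀ * g⁻¹) = g * ((g⁻¹ * k * g) * M.t₀) * g⁻¹ := by group
      _ = g * (M.t₀ * (g⁻¹ * k * g)) * g⁻¹ := by rw [h2]
      _ = g * M.t₀ * g⁻¹ * k := by group
  have hle : Subgroup.closure (Set.range B.t ∪ {M.z}) ≤ Subgroup.centralizer {k} := by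
    rw [Subgroup.closure_le]
    rintro x (⟨i, rfl⟩ | hx)
    · exact Subgroup.mem_centralizer_singleton_iff.2 (h1 i).symm
    · rw [Set.mem_singleton_iff] at hx
      rw [hx]
      exact Subgroup.mem_centralizer_singleton_iff.2 (hz k hC).symm
  have h2 : ∀ y ∈ M.Q, k * y = y * k := fun y hy =>
    (Subgroup.mem_centralizer_singleton_iff.1 (hle (O.gen hy))).symm
  have hkQ : k ∈ M.Q := mem_Q_of_trivial hG k hC fun q hq => by
    left; rw [h2 q hq, mul_assoc, mul_inv_cancel, mul_one]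
  exact hG.Q_center k hkQ h2

end base

open Cfsg.Agent.Monster.VecEngine Cfsg.Agent.Monster.VecSpace
open Cfsg.Agent.MonsterX.Space Cfsg.Agent.MonsterX.ProgTable Cfsg.Agent.MonsterX.GensT Cfsg.Agent.MonsterX.ProgBase
open Cfsg.Agent.MonsterX.Conc Cfsg.Agent.MonsterX.InstEval
open Cfsg.Agent.MonsterX.InstData Cfsg.Agent.MonsterX.BaseVec Cfsg.Agent.MonsterX.OrdChk

theorem split_uB : eqP (norm (add yB (oneP 196608) 0)) (norm uB) = true := by decide +kernel

theorem vecV_yB : vecV yB = ∑ i, BaseVec.B.c i • BaseVec.B.e i := by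
  have h1 : vecV yB + vecV (oneP 196608) = vecV uB := by
    rw [← vecV_add]
    exact vecV_congr split_uB
  have h2 : BaseVec.B.u = (∑ i, BaseVec.B.c i • BaseVec.B.e i) + BaseVec.B.s := rfl
  rw [BaseVec.u_eq'] at h2
  have h3 : BaseVec.B.s = vecV (oneP 196608) := rfl
  rw [h3, ← h1] at h2
  exact add_right_cancel h2

theorem W_rep (w : List ℕ) (n : ℕ) : W (rep w n) = W w ^ n := by
  induction n with
  | zero => rw [pow_zero]; exact W_nil
  | succ n ih =>
    have : rep w (n + 1) = cat w (rep w n) := rfl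
    rw [this, W_cat, ih, pow_succ]

theorem w3_mem : W w3 ∈ M.C := ConcGrp.W_mem_C (by decide)

theorem seg_of {n : ℕ} {x y : Pl} (h : check ((rep w3 n).map prog) x ([].map prog) y = true) :
    (W w3 ^ n) (vecV x) = vecV y := by
  have h1 := W_eq_of_check h
  rw [W_rep, W_nil] at h1
  exact h1

/-- **The 23rd power of `W w3` is `1` or `z`.** -/
theorem w3_pow : W w3 ^ 23 = 1 ∨ W w3 ^ 23 = M.z := by
  refine eq_one_or_z BaseVec.B Instance.mGroup Instance.mRep Instance.mLat (BaseVec.ok InstanceFinal.pack.lines) _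
    (M.C.pow_mem w3_mem 23) ?_
  rw [← vecV_yB]
  have h : W w3 ^ 23 = W w3 ^ 5 * (W w3 ^ 6 * (W w3 ^ 6 * W w3 ^ 6)) := by
    rw [← pow_add, ← pow_add, ← pow_add]
  rw [h, LinearEquiv.mul_apply, LinearEquiv.mul_apply, LinearEquiv.mul_apply, seg_of seg1, seg_of seg2, seg_of seg3,
    seg_of seg4]

end Cfsg.Agent.H909.Mon
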